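import Cfsg.Agent.H229.Asym

/-!
# S2927: the standing counterexample

`Cx S Q M`: `S` Sylow 2 in `G`, `Q ≤ S` large, `M ∈ 𝔐_G(S)`, `Y = Y_M` asymmetric, tall, not characteristic 2-tall.
-/

set_option autoImplicit false
set_option linter.unusedSectionVars false
open Cfsg Subgroup
open Cfsg.Agent.H229 Cfsg.Agent.H230

namespace Cfsg.Agent.H252.LT

variable {G : Type*} [Group G]

/-- A counterexample to S2927 (after elementary reductions). `Y = largestPReducedOf 2 M`, `T = pCoreOf 2 M = O₂(M)`. -/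
structure Cx (S : Sylow 2 G) (Q M : Subgroup G) : Prop where
  st : Setup 2 S Q M
  /-- `Q = O₂(N_G(Q))` -/
  bullet : pCoreOf 2 (normalizer (Q : Set G)) = Q
  /-- `S` lies in two maximal 2-local subgroups -/
  two : ∃ M₁ M₂ : Subgroup G, M₁ ≠ M₂ ∧ Cfsg.IsMaximalTwoLocal M₁ ∧ Cfsg.IsMaximalTwoLocal M₂ ∧
    (S : Subgroup G) ≤ M₁ ∧ (S : Subgroup G) ≤ M₂
  asym : ¬ IsSymmetricIn (largestPReducedOf 2 M)
  /-- `Y ≤ O₂(L)` for every `L ≥ O₂(M)` of characteristic 2 -/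
  short : ∀ L : Subgroup G, pCoreOf 2 M ≤ L → ChP 2 L → largestPReducedOf 2 M ≤ pCoreOf 2 L
  /-- a bad element of `Y` -/
  bad : ∃ x ∈ largestPReducedOf 2 M, x ≠ 1 ∧ ¬ ChP 2 (centralizer ({x} : Set G))
  /-- `C_Y(M) = 1` -/
  fix : ∀ y ∈ largestPReducedOf 2 M, M ≤ centralizer ({y} : Set G) → y = 1

/-- `C(z) ≤ C(⟨z⟩)` -/
theorem centralizer_singleton_le_zpowers (z : G) :
    centralizer ({z} : Set G) ≤ centralizer (zpowers z : Set G) := by
  intro x hx
  rw [mem_centralizer_singleton_iff] at hx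
  rw [mem_centralizer_iff]
  rintro _ ⟨k, rfl⟩
  exact ((Commute.zpow_right hx k).eq).symm

namespace Cx

variable [Finite G] {S : Sylow 2 G} {Q M : Subgroup G}

theorem mem_cent {x y : G} : x ∈ centralizer ({y} : Set G) ↔ x * y = y * x := by
  rw [mem_centralizer_singleton_iff]

theorem T_le_S (c : Cx S Q M) : pCoreOf 2 M ≤ (S : Subgroup G) := c.st.core_le_S

theorem Y_le_T (_c : Cx S Q M) : largestPReducedOf 2 M ≤ pCoreOf 2 M := largest_le_pCoreOf 2 M

theorem Y_ea (_c : Cx S Q M) : IsElementaryAbelian 2 (largestPReducedOf 2 M) := largest_ea 2 M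

theorem M_norm_Y (_c : Cx S Q M) : M ≤ normalizer (largestPReducedOf 2 M : Set G) := largest_normal 2 M

theorem S_norm_Q (c : Cx S Q M) : (S : Subgroup G) ≤ normalizer (Q : Set G) :=
  c.st.large.le_norm_of_le S.2 c.st.QS

theorem chP_of_S (c : Cx S Q M) {L : Subgroup G} (hL : (S : Subgroup G) ≤ L) (h1 : pCoreOf 2 L ≠ ⊥) : ChP 2 L :=
  c.st.large.chP (c.st.QS.trans hL) h1

theorem Y_le_of_S (c : Cx S Q M) {L : Subgroup G} (hL : (S : Subgroup G) ≤ L) (h1 : pCoreOf 2 L ≠ ⊥) :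
    largestPReducedOf 2 M ≤ pCoreOf 2 L :=
  c.short L (c.T_le_S.trans hL) (c.chP_of_S hL h1)

theorem Y_le_Q (c : Cx S Q M) : largestPReducedOf 2 M ≤ Q := by
  have h1 : pCoreOf 2 (normalizer (Q : Set G)) ≠ ⊥ := by rw [c.bullet]; exact c.st.large.ne_bot
  have := c.Y_le_of_S c.S_norm_Q h1
  rwa [c.bullet] at this

theorem cent_T_le (c : Cx S Q M) : centralizer (pCoreOf 2 M : Set G) ≤ pCoreOf 2 M := c.st.cent_core

/-- central elements of `S` -/
theorem center_mem_S (c : Cx S Q M) {z : G} (hz : z ∈ centralizer ((S : Subgroup G) : Set G)) : z ∈ Q :=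
  c.st.large.cent (centralizer_le (show (Q : Set G) ⊆ (S : Subgroup G) from c.st.QS) hz)

theorem center_mem_Y (c : Cx S Q M) {z : G} (hz : z ∈ centralizer ((S : Subgroup G) : Set G)) (h2 : z ^ 2 = 1) :
    z ∈ largestPReducedOf 2 M := by
  have h1 := omegaOne_le_largest c.st.chP (isSylowOf_of_sylow S c.st.SM)
  exact h1 (Subgroup.subset_closure ⟨⟨c.st.QS (c.center_mem_S hz), hz⟩, h2⟩)

theorem cent_le_norm_Q (c : Cx S Q M) {z : G} (hz : z ∈ centralizer ((S : Subgroup G) : Set G)) (h1 : z ≠ 1) :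
    centralizer ({z} : Set G) ≤ normalizer (Q : Set G) := by
  have h2 : zpowers z ≤ centralizer (Q : Set G) := by
    rw [zpowers_le]
    exact centralizer_le (show (Q : Set G) ⊆ (S : Subgroup G) from c.st.QS) hz
  have h3 : zpowers z ≠ ⊥ := by rwa [Ne, zpowers_eq_bot]
  refine le_trans ?_ (c.st.large.norm h2 h3)
  refine le_trans ?_ (centralizer_le_norm _)
  exact (centralizer_singleton_le_zpowers z)

theorem not_M_le (c : Cx S Q M) {z : G} (hz : z ∈ centralizer ((S : Subgroup G) : Set G)) (h2 : z ^ 2 = 1)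
    (h1 : z ≠ 1) : ¬ M ≤ centralizer ({z} : Set G) := fun h => h1 (c.fix z (c.center_mem_Y hz h2) h)

/-! ### The elementary abelian normal subgroup `V = ⟨Y^{N_G(Q)}⟩` of `N_G(Q)` -/

/-- `V = ⟨Y^{N_G(Q)}⟩` -/
def V (_c : Cx S Q M) : Subgroup G := ncl (normalizer (Q : Set G)) (largestPReducedOf 2 M)

theorem Y_le_V (c : Cx S Q M) : largestPReducedOf 2 M ≤ c.V := le_ncl _ _

theorem V_ea (c : Cx S Q M) : IsElementaryAbelian 2 c.V :=
  ea_ncl_of_asym c.asym c.Y_ea c.Y_le_Q (c.st.QS.trans (c.st.SM.trans c.M_norm_Y))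

theorem norm_V (c : Cx S Q M) : normalizer (Q : Set G) ≤ normalizer (c.V : Set G) := le_norm_ncl _ _

theorem V_le_Q (c : Cx S Q M) : c.V ≤ Q := ncl_le le_rfl c.Y_le_Q

/-- **First row criterion.** For `K` normal in `G` and `z ∈ K` an involution central in `S`: there is an elementary
abelian `E ≤ K ∩ Q` containing `z`, normalized by `C_G(z)`, commuting with `z` and not equal to `{1, z}`. -/
theorem exists_four (c : Cx S Q M) {K : Subgroup G} [hK : K.Normal] {z : G} (hzK : z ∈ K)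
    (hz : z ∈ centralizer ((S : Subgroup G) : Set G)) (h2 : z ^ 2 = 1) (h1 : z ≠ 1) :
    ∃ E : Subgroup G, E ≤ K ∧ E ≤ Q ∧ IsElementaryAbelian 2 E ∧ z ∈ E ∧ largestPReducedOf 2 M ⊓ K ≤ E ∧
      centralizer ({z} : Set G) ≤ normalizer (E : Set G) ∧ E ≤ centralizer ({z} : Set G) ∧
      ∃ e ∈ largestPReducedOf 2 M ⊓ K, e ≠ 1 ∧ e ≠ z := by
  have hzY := c.center_mem_Y hz h2
  have hKn : ∀ g : G, g ∈ normalizer (K : Set G) := fun g => by rw [Subgroup.normalizer_eq_top_iff.2 hK]; exact mem_top g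
  refine ⟨c.V ⊓ K, inf_le_right, inf_le_left.trans c.V_le_Q, ea_mono c.V_ea inf_le_left,
    ⟨c.Y_le_V hzY, hzK⟩, inf_le_inf_right _ c.Y_le_V, ?_, ?_, ?_⟩
  · refine le_trans ?_ (norm_inf_le _ _)
    exact le_inf ((c.cent_le_norm_Q hz h1).trans c.norm_V) fun g _ => hKn g
  · intro e he
    rw [mem_centralizer_singleton_iff]
    exact ea_comm c.V_ea he.1 (c.Y_le_V hzY)
  · by_contra hne
    push Not at hne
    apply c.not_M_le hz h2 h1
    intro m hm
    rw [mem_centralizer_singleton_iff]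
    have h3 : m ∈ normalizer ((largestPReducedOf 2 M ⊓ K : Subgroup G) : Set G) :=
      norm_inf_le _ _ ⟨c.M_norm_Y hm, hKn m⟩
    have h4 : m * z * m⁻¹ ∈ largestPReducedOf 2 M ⊓ K := (mem_normalizer_iff.1 h3 z).1 ⟨hzY, hzK⟩
    have h5 := hne _ h4 (by
      intro h6
      apply h1
      calc z = m⁻¹ * (m * z * m⁻¹) * m := by group
        _ = 1 := by rw [h6]; group)
    calc m * z = (m * z * m⁻¹) * m := by group
      _ = z * m := by rw [h5]

/-- `C_M(Y ∩ K) ∩ K ≤ C_M(Y)` for `K` normal in `G`. -/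
theorem cent_inf_le (c : Cx S Q M) {K : Subgroup G} [hK : K.Normal] :
    M ⊓ K ⊓ centralizer ((largestPReducedOf 2 M ⊓ K : Subgroup G) : Set G) ≤
      centralizer (largestPReducedOf 2 M : Set G) := by
  have hKn : ∀ g : G, g ∈ normalizer (K : Set G) := fun g => by rw [Subgroup.normalizer_eq_top_iff.2 hK]; exact mem_top g
  refine (pRed_largest 2 M).2.2.2 _ (inf_le_left.trans inf_le_left) ?_ ?_
  · intro m hm
    refine norm_inf_le _ _ ⟨norm_inf_le _ _ ⟨le_normalizer hm, hKn m⟩, ?_⟩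
    exact norm_le_norm_centralizer _ (norm_inf_le _ _ ⟨c.M_norm_Y hm, hKn m⟩)
  · rintro b ⟨⟨hbM, hbK⟩, hbc⟩
    refine ⟨1, ?_⟩
    rw [pow_one, mem_centralizer_iff]
    intro y hy
    -- `d = y⁻¹ * (b y b⁻¹) ∈ Y ∩ K`
    have hby : b * y * b⁻¹ ∈ largestPReducedOf 2 M := (mem_normalizer_iff.1 (c.M_norm_Y hbM) y).1 hy
    have hd1 : y⁻¹ * (b * y * b⁻¹) ∈ largestPReducedOf 2 M := mul_mem (inv_mem hy) hby
    have hd2 : y⁻¹ * (b * y * b⁻¹) ∈ K := by
      have e : y⁻¹ * (b * y * b⁻¹) = (y⁻¹ * b * (y⁻¹)⁻¹) * b⁻¹ := by group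
      rw [e]
      exact mul_mem (hK.conj_mem b hbK y⁻¹) (inv_mem hbK)
    set d := y⁻¹ * (b * y * b⁻¹) with hd
    have hbd : b * d * b⁻¹ = d := by
      have := mem_centralizer_iff.1 hbc d ⟨hd1, hd2⟩
      rw [← this]; group
    have hd2' : d ^ 2 = 1 := c.Y_ea.2 _ hd1
    have e1 : b * y * b⁻¹ = y * d := by rw [hd]; group
    have e2 : b ^ 2 * y * (b ^ 2)⁻¹ = y := by
      calc b ^ 2 * y * (b ^ 2)⁻¹ = b * (b * y * b⁻¹) * b⁻¹ := by rw [pow_two]; group
        _ = b * (y * d) * b⁻¹ := by rw [e1]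
        _ = (b * y * b⁻¹) * (b * d * b⁻¹) := by group
        _ = (y * d) * d := by rw [hbd, e1]
        _ = y * d ^ 2 := by rw [pow_two]; group
        _ = y := by rw [hd2', mul_one]
    calc y * b ^ 2 = (b ^ 2 * y * (b ^ 2)⁻¹) * b ^ 2 := by rw [e2]
      _ = b ^ 2 * y := by group

end Cx

end Cfsg.Agent.H252.LT
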