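import Cfsg.Agent.H252.LT.Base

/-!
# S2927: row predicates

`Cfsg.Agent.H252.LT.DeadL P` : no counterexample `Cx S Q M` in a group `G` with a normal simple subgroup `K`,
`C_G(K) = 1`, such that `P K`. The criteria `KI`, `KP`, `KD`, `KS` speak about the simple group `K` only.
-/

set_option autoImplicit false
open Cfsg Subgroup
open Cfsg.Agent.H229 Cfsg.Agent.H230

universe u

namespace Cfsg.Agent.H252.LT

/-- `z` is an involution of `K` centralized by a Sylow 2-subgroup of `K`. -/
def TwoCentral {K : Type*} [Group K] (z : K) : Prop :=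
  z ≠ 1 ∧ z ^ 2 = 1 ∧ ¬ 2 ∣ (centralizer ({z} : Set K)).index

/-- no counterexample in a group `G` with `K ⊴ G` simple, `C_G(K) = 1`, `P K`. -/
def DeadL (P : (K : Type u) → [Group K] → Prop) : Prop :=
  ∀ {G : Type u} [Group G] [Finite G] {S : Sylow 2 G} {Q M : Subgroup G}, Cx S Q M →
    ∀ K : Subgroup G, K.Normal → IsSimpleGroup ↥K → ¬ IsMulCommutative ↥K → centralizer (K : Set G) = ⊥ → P ↥K → False

/-- **Criterion I**: for every 2-central involution `z` of `K` with `C_K(z)` of characteristic 2, `{1, z}` is the only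
elementary abelian normal 2-subgroup of `C_K(z)` containing `z`. -/
def KI (K : Type u) [Group K] : Prop :=
  ∀ z : K, TwoCentral z → ChP 2 (centralizer ({z} : Set K)) →
    ∀ E : Subgroup K, E ≤ centralizer ({z} : Set K) → centralizer ({z} : Set K) ≤ normalizer (E : Set K) →
      IsElementaryAbelian 2 E → z ∈ E → ∀ e ∈ E, e = 1 ∨ e = z

/-- **Criterion P**: `K` has a 2-central involution whose class is invariant under `Aut(K)` and whose centralizer is
not of characteristic 2 (e.g. it has a component, or a nontrivial normal subgroup of odd order). -/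
def KP (K : Type u) [Group K] : Prop :=
  ∃ z : K, TwoCentral z ∧ (∀ a : MulAut K, IsConj (a z) z) ∧ ¬ ChP 2 (centralizer ({z} : Set K))

/-- **Criterion D**: an involution `t` of `K` and a normal subgroup `D` of `C_K(t)`, not of characteristic 2 (e.g. `D`
quasisimple), such that for every Sylow 2-subgroup `P` of `D` every element of `K` commuting with `P` and `t`
commutes with `D`. -/
def KD (K : Type u) [Group K] : Prop :=
  ∃ (t : K) (D : Subgroup K), t ≠ 1 ∧ t ^ 2 = 1 ∧ D ≤ centralizer ({t} : Set K) ∧
    centralizer ({t} : Set K) ≤ normalizer (D : Set K) ∧ ¬ ChP 2 D ∧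
    ∀ P : Subgroup K, IsSylowOf 2 P D →
      centralizer (P : Set K) ⊓ centralizer ({t} : Set K) ≤ centralizer (D : Set K)

/-- **Criterion S** (symplectic type): for every 2-central involution `z` of `K` with `C_K(z)` of characteristic 2,
`R = O₂(C_K(z))` has `R' ≤ {1, z}` and the only involution in `Z(R)` is `z`. Then all elements of `Y ∩ K` are good. -/
def KS (K : Type u) [Group K] : Prop :=
  ∀ z : K, TwoCentral z → ChP 2 (centralizer ({z} : Set K)) →
    (∀ a ∈ pCoreOf 2 (centralizer ({z} : Set K)), ∀ b ∈ pCoreOf 2 (centralizer ({z} : Set K)),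
      a * b = b * a ∨ a * b = b * a * z) ∧
    (∀ a ∈ pCoreOf 2 (centralizer ({z} : Set K)), a ^ 2 = 1 →
      (∀ b ∈ pCoreOf 2 (centralizer ({z} : Set K)), a * b = b * a) → a = 1 ∨ a = z)

/-- all involutions of `K` have centralizers of characteristic 2 -/
def KG (K : Type u) [Group K] : Prop :=
  ∀ z : K, z ≠ 1 → z ^ 2 = 1 → ChP 2 (centralizer ({z} : Set K))

end Cfsg.Agent.H252.LT
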