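import Cfsg.Agent.H252.LT.Tr
import Cfsg.Agent.H258.TF.Cx
import Cfsg.Agent.H226.Tall.Defs

/-! # S2927: the bridge from `Cx` to helper226's `Tall`, `One`, and from `No1` to `DeadL` -/

set_option autoImplicit false
set_option linter.unusedSectionVars false
open Cfsg Subgroup
open Cfsg.Agent.H229 Cfsg.Agent.H230
open Cfsg.Agent.H226.Tall (Tall One No1 O2 Wc)
open Cfsg.Agent.H239.CharPLocal (CP)

universe u

namespace Cfsg.Agent.H252.LT

variable {G : Type*} [Group G] [Finite G] {S : Sylow 2 G} {Q M : Subgroup G}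

namespace Cx

/-- the elements of `Z(Q)` -/
theorem good_of_center (c : Cx S Q M) {a : G} (haQ : a ∈ Q) (ha1 : a ≠ 1) (hac : ∀ q ∈ Q, q * a = a * q) :
    centralizer ({a} : Set G) ≤ normalizer (Q : Set G) ∧ ChP 2 (centralizer ({a} : Set G)) := by
  have hac' : a ∈ centralizer (Q : Set G) := mem_centralizer_iff.2 hac
  have h2 : zpowers a ≤ centralizer (Q : Set G) := by rwa [zpowers_le]
  have h3 : zpowers a ≠ ⊥ := by rwa [Ne, zpowers_eq_bot]
  refine ⟨?_, ?_⟩
  · refine le_trans ?_ (c.st.large.norm h2 h3)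
    refine le_trans ?_ (centralizer_le_norm _)
    exact (centralizer_singleton_le_zpowers a)
  · refine c.st.large.chP (p := 2) ?_ ?_
    · intro q hq
      rw [mem_centralizer_singleton_iff]
      exact hac q hq
    · intro h
      apply ha1
      have hza : zpowers a ≤ pCoreOf 2 (centralizer ({a} : Set G)) := by
        apply le_pCoreOf
        · rw [zpowers_le, mem_centralizer_singleton_iff]
        · refine le_trans ?_ (centralizer_le_norm _)
          exact (centralizer_singleton_le_zpowers a)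
        · exact isPGroup_mono (by rw [zpowers_le]; exact haQ) (isPGroup_mono c.st.QS S.2)
      rw [h, le_bot_iff, zpowers_eq_bot] at hza
      exact hza

theorem mem_Y_iff (c : Cx S Q M) (y : G) : y ∈ largestPReducedOf 2 M ↔
    y ∈ pCoreOf 2 M ∧ y * y = 1 ∧ ∀ t ∈ pCoreOf 2 M, t * y = y * t := by
  constructor
  · intro hy
    have h1 := mem_zOmega.1 (largest_le_zOmega 2 M hy)
    refine ⟨c.Y_le_T hy, ?_, ?_⟩
    · rw [← pow_two]; exact c.Y_ea.2 _ hy
    · exact fun t ht => mem_centralizer_iff.1 (h1.2.1) t ht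
  · rintro ⟨h1, h2, h3⟩
    apply H258.TF.zOmega_le c.st
    rw [mem_zOmega]
    exact ⟨h1, mem_centralizer_iff.2 h3, by rw [pow_two]; exact h2⟩

theorem not_M_le_norm (c : Cx S Q M) : ¬ M ≤ normalizer (Q : Set G) := by
  intro h
  obtain ⟨x, hxY, hx1, hx⟩ := c.bad
  have h1 : Q ≤ pCoreOf 2 M := le_pCoreOf (c.st.QS.trans c.st.SM) h (isPGroup_mono c.st.QS S.2)
  exact hx (c.good_of_center (c.Y_le_Q hxY) hx1 fun q hq => ((c.mem_Y_iff x).1 hxY).2.2 q (h1 hq)).2

theorem norm_Y (c : Cx S Q M) {L : Subgroup G} (hL : M ≤ L) (h1 : pCoreOf 2 L ≠ ⊥) :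
    L ≤ normalizer (largestPReducedOf 2 M : Set G) := by
  have h2 := c.st.large.mem_charPSubgroups S c.st.QS (c.st.SM.trans hL) h1
  obtain ⟨X, hX, hLX⟩ := exists_maxCharP h2
  rw [c.st.dag_unique hX (hL.trans hLX)] at hLX
  exact hLX.trans Setup.dag_le_norm

theorem Wc_le_V (c : Cx S Q M) : Wc Q (largestPReducedOf 2 M) ≤ c.V := by
  rw [Wc, closure_le]
  rintro _ ⟨n, hn, y, hy, rfl⟩
  exact cj_le_ncl hn ⟨y, hy, rfl⟩

/-- **The bridge.** -/
theorem tall {G : Type u} [Group G] [Finite G] {S : Sylow 2 G} {Q M : Subgroup G} (c : Cx S Q M) :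
    ∃ x, Tall S Q M (largestPReducedOf 2 M) x := by
  have hbad := c.bad
  obtain ⟨x, hxY, hx1, hx⟩ := c.bad
  refine ⟨x, ?_⟩
  exact
  { Q_le := c.st.QS
    Q_core := c.bullet
    Q_cent := c.st.large.cent
    Q_norm := fun A hA hA1 => c.st.large.norm (hA.trans inf_le_right) hA1
    two := c.two
    par := fun L hL h1 => (mem_charPSubgroups.1 (c.st.large.mem_charPSubgroups S c.st.QS hL h1)).2
    S_le := c.S_norm_Q
    zS := fun a ha _ => c.center_mem_S (mem_centralizer_iff.2 ha)
    good := fun a haQ ha1 hac => ⟨(c.good_of_center haQ ha1 hac).1, chP_iff.1 (c.good_of_center haQ ha1 hac).2⟩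
    S_le_M := c.st.SM
    M_core := c.st.cent_core
    T_eq := c.st.S_inf.symm
    Y_iff := c.mem_Y_iff
    omega := fun a ha h2 => c.center_mem_Y (mem_centralizer_iff.2 ha) (by rw [pow_two]; exact h2)
    norm_Y := fun L hL h1 => c.norm_Y hL h1
    asym := c.asym
    nct := fun L hL h => c.short L hL (chP_iff.2 h)
    W_le := c.Wc_le_V.trans c.V_le_Q
    W_sq := fun w hw => by rw [← pow_two]; exact c.V_ea.2 _ (c.Wc_le_V hw)
    not_le := c.not_M_le_norm
    moves := by
      intro a ha h2 ha1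
      have ha' : a ∈ centralizer ((S : Subgroup G) : Set G) := mem_centralizer_iff.2 ha
      have haY := c.center_mem_Y ha' (by rw [pow_two]; exact h2)
      by_contra hne
      push Not at hne
      apply c.not_M_le ha' (by rw [pow_two]; exact h2) ha1
      intro m hm
      rw [mem_centralizer_singleton_iff]
      have h5 := hne m hm ((mem_normalizer_iff.1 (c.M_norm_Y hm) a).1 haY)
      calc m * a = (m * a * m⁻¹) * m := by group
        _ = a * m := by rw [h5]
    x_mem := hxY
    x_ord := orderOf_eq_prime (c.Y_ea.2 _ hxY) hx1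
    x_bad := fun h => hx (chP_iff.2 h) }

end Cx

/-- rows in helper226's form can be used for `Cx` -/
theorem deadL_of_no1 {R : (K : Type u) → [Group K] → Prop} (h : No1.{u} R) : DeadL.{u} R := by
  intro G _ _ S Q M c K hK hs hna hC hR
  obtain ⟨x, t⟩ := c.tall
  refine h (K := K) ({ toTall := t, nK := hK, simple := hs, nonab := ?_, cent := hC } : One S Q M _ x K) hR
  by_contra hne
  push Not at hne
  exact hna ⟨⟨hne⟩⟩

end Cfsg.Agent.H252.LT
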