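import Cfsg.Agent.H252.LT.Rows
import Cfsg.Agent.S0205

/-! # S2927: transfer between `G` and the normal subgroup `K` -/

set_option autoImplicit false
set_option linter.unusedSectionVars false
open Cfsg Subgroup
open Cfsg.Agent.H229 Cfsg.Agent.H230

universe u

namespace Cfsg.Agent.H252.LT

variable {G : Type*} [Group G]

theorem le_norm_subgroupOf {A B K : Subgroup G} (h : A ≤ normalizer (B : Set G)) :
    A.subgroupOf K ≤ normalizer ((B.subgroupOf K : Subgroup ↥K) : Set ↥K) := by
  rw [le_norm_iff] at h ⊢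
  intro a ha b hb
  exact h a ha b hb

theorem pCoreOf_subgroupOf {p : ℕ} {K L : Subgroup G} (hL : L ≤ K) :
    pCoreOf p (L.subgroupOf K) = (pCoreOf p L).subgroupOf K := by
  apply le_antisymm
  · intro x hx
    have h1 : (pCoreOf p (L.subgroupOf K)).map K.subtype ≤ pCoreOf p L := by
      apply le_pCoreOf
      · rw [Subgroup.map_le_iff_le_comap]
        exact pCoreOf_le _ _
      · rw [le_norm_iff]
        rintro l hl _ ⟨y, hy, rfl⟩
        refine ⟨⟨l, hL hl⟩ * y * ⟨l, hL hl⟩⁻¹, ?_, rfl⟩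
        exact (le_norm_iff.1 (le_norm_pCoreOf p (L.subgroupOf K))) ⟨l, hL hl⟩ hl y hy
      · exact (isPGroup_pCoreOf p _).map _
    exact h1 ⟨x, hx, rfl⟩
  · apply le_pCoreOf
    · exact fun x hx => pCoreOf_le p L hx
    · exact le_norm_subgroupOf (le_norm_pCoreOf p L)
    · exact (isPGroup_pCoreOf p L).comap_of_injective K.subtype K.subtype_injective

theorem chP_subgroupOf {p : ℕ} {K L : Subgroup G} (hL : L ≤ K) :
    ChP p (L.subgroupOf K) ↔ ChP p L := by
  unfold ChP
  rw [pCoreOf_subgroupOf hL]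
  constructor
  · rintro h x ⟨hx, hxc⟩
    have hc : (⟨x, hL hx⟩ : ↥K) ∈ centralizer (((pCoreOf p L).subgroupOf K : Subgroup ↥K) : Set ↥K) := by
      rw [mem_centralizer_iff]
      intro y hy
      exact Subtype.ext (mem_centralizer_iff.1 hxc y hy)
    exact h (x := ⟨x, hL hx⟩) ⟨hx, hc⟩
  · rintro h x ⟨hx, hxc⟩
    have hc : (x : G) ∈ centralizer (pCoreOf p L : Set G) := by
      rw [mem_centralizer_iff]
      intro y hy
      exact congrArg Subtype.val (mem_centralizer_iff.1 hxc ⟨y, hL (pCoreOf_le p L hy)⟩ hy)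
    exact h ⟨hx, hc⟩

theorem centralizer_singleton_subtype {K : Subgroup G} (z : ↥K) :
    centralizer ({z} : Set ↥K) = (centralizer ({(z : G)} : Set G) ⊓ K).subgroupOf K := by
  ext x
  rw [mem_subgroupOf, mem_inf, mem_centralizer_singleton_iff, mem_centralizer_singleton_iff, Subtype.ext_iff]
  exact ⟨fun h => ⟨h, x.2⟩, fun h => h.1⟩

theorem chP_cent {p : ℕ} {K : Subgroup G} (z : ↥K) :
    ChP p (centralizer ({z} : Set ↥K)) ↔ ChP p (centralizer ({(z : G)} : Set G) ⊓ K) := by
  rw [centralizer_singleton_subtype, chP_subgroupOf inf_le_right]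

theorem pCoreOf_cent {p : ℕ} {K : Subgroup G} (z : ↥K) :
    pCoreOf p (centralizer ({z} : Set ↥K)) = (pCoreOf p (centralizer ({(z : G)} : Set G) ⊓ K)).subgroupOf K := by
  rw [centralizer_singleton_subtype, pCoreOf_subgroupOf inf_le_right]

/-- `|N : H ∩ N| ∣ |G : H|` for `N` normal. -/
theorem relIndex_dvd_index' [Finite G] (H N : Subgroup G) [N.Normal] : H.relIndex N ∣ H.index := by
  have h1 : (H ⊓ N).relIndex N * N.relIndex (H ⊔ N) = (H ⊓ N).relIndex (H ⊔ N) :=
    relIndex_mul_relIndex _ _ _ inf_le_right le_sup_right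
  have h2 : (H ⊓ N).relIndex H * H.relIndex (H ⊔ N) = (H ⊓ N).relIndex (H ⊔ N) :=
    relIndex_mul_relIndex _ _ _ inf_le_left le_sup_left
  rw [inf_relIndex_right, relIndex_sup_right] at h1
  rw [inf_relIndex_left, ← h1, mul_comm] at h2
  have h3 : 0 < N.relIndex H := Nat.pos_of_ne_zero (by
    unfold relIndex
    exact index_ne_zero_of_finite)
  have h4 : H.relIndex (H ⊔ N) = H.relIndex N := Nat.eq_of_mul_eq_mul_right h3 h2
  rw [← h4]
  exact relIndex_dvd_index_of_le le_sup_left

theorem index_cent_dvd [Finite G] {K : Subgroup G} [hK : K.Normal] (z : ↥K) :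
    (centralizer ({z} : Set ↥K)).index ∣ (centralizer ({(z : G)} : Set G)).index := by
  have h1 : (centralizer ({z} : Set ↥K)).index = (centralizer ({(z : G)} : Set G)).relIndex K := by
    rw [centralizer_singleton_subtype, Subgroup.relIndex, Subgroup.inf_subgroupOf_right]
  rw [h1]
  exact relIndex_dvd_index' _ _

/-! ### central involutions -/

namespace Cx

variable [Finite G] {S : Sylow 2 G} {Q M : Subgroup G}

theorem two_dvd_of_simple {K : Type*} [Group K] [Finite K] [IsSimpleGroup K] (hna : ¬ IsMulCommutative K) :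
    2 ∣ Nat.card K := by
  by_contra h
  have hodd : Odd (Nat.card K) := by
    rw [← Nat.not_even_iff_odd, even_iff_two_dvd]
    exact h
  have hs := S0205.result hodd
  apply hna
  refine ⟨⟨fun a b => ?_⟩⟩
  exact IsSimpleGroup.comm_iff_isSolvable.2 hs a b

/-- an involution of the normal subgroup `K` (of even order) central in `S`. -/
theorem exists_central (S : Sylow 2 G) (K : Subgroup G) [hK : K.Normal] (h2 : 2 ∣ Nat.card ↥K) :
    ∃ z ∈ K, z ∈ centralizer ((S : Subgroup G) : Set G) ∧ z ^ 2 = 1 ∧ z ≠ 1 := by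
  have : Fact (Nat.Prime 2) := ⟨Nat.prime_two⟩
  -- `S ∩ K ≠ 1`
  have h1 : (S : Subgroup G) ⊓ K ≠ ⊥ := by
    intro h
    obtain ⟨t, ht⟩ := exists_prime_orderOf_dvd_card' (G := ↥K) 2 h2
    have ht' : IsPGroup 2 ↥(zpowers (t : G)) := by
      rw [IsPGroup.iff_card]
      refine ⟨1, ?_⟩
      rw [Nat.card_zpowers, Subgroup.orderOf_coe, ht, pow_one]
    obtain ⟨S', hS'⟩ := ht'.exists_le_sylow
    obtain ⟨g, hg⟩ := MulAction.exists_smul_eq G S' S
    have h3 : g * t * g⁻¹ ∈ (S : Subgroup G) := by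
      rw [← hg]
      exact ⟨t, hS' (mem_zpowers _), rfl⟩
    have h4 : g * t * g⁻¹ ∈ (S : Subgroup G) ⊓ K := ⟨h3, hK.conj_mem _ t.2 g⟩
    rw [h, mem_bot] at h4
    have h5 : (t : G) = 1 := by
      calc (t : G) = g⁻¹ * (g * t * g⁻¹) * g := by group
        _ = 1 := by rw [h4]; group
    have h6 : t = 1 := Subtype.ext h5
    rw [h6, orderOf_one] at ht
    exact absurd ht (by norm_num)
  have h2' : (S : Subgroup G) ≤ normalizer (((S : Subgroup G) ⊓ K : Subgroup G) : Set G) := by
    intro s hs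
    refine norm_inf_le _ _ ⟨le_normalizer hs, ?_⟩
    rw [Subgroup.normalizer_eq_top_iff.2 hK]; exact mem_top s
  have h3 := PLocal.OffenderStep.inf_centralizer_ne_bot ((S : Subgroup G) ⊓ K) (S : Subgroup G)
    (isPGroup_mono inf_le_left S.2) S.2 h2' h1
  have h4 : IsPGroup 2 ↥((S : Subgroup G) ⊓ K ⊓ centralizer ((S : Subgroup G) : Set G) : Subgroup G) :=
    isPGroup_mono (inf_le_left.trans inf_le_left) S.2
  have h5 : 2 ∣ Nat.card ↥((S : Subgroup G) ⊓ K ⊓ centralizer ((S : Subgroup G) : Set G) : Subgroup G) := by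
    obtain ⟨n, hn⟩ := IsPGroup.iff_card.1 h4
    rcases Nat.eq_zero_or_pos n with h0 | h0
    · rw [h0, pow_zero, Subgroup.card_eq_one] at hn
      exact absurd hn h3
    · rw [hn]; exact dvd_pow_self 2 h0.ne'
  obtain ⟨z, hz⟩ := exists_prime_orderOf_dvd_card' 2 h5
  refine ⟨z, z.2.1.2, z.2.2, ?_, ?_⟩
  · have := pow_orderOf_eq_one z
    rw [hz] at this
    exact congrArg Subtype.val this
  · intro h
    have h6 : z = 1 := Subtype.ext h
    rw [h6, orderOf_one] at hz
    exact absurd hz (by norm_num)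

theorem odd_index {z : G} (hz : z ∈ centralizer ((S : Subgroup G) : Set G)) :
    ¬ 2 ∣ (centralizer ({z} : Set G)).index := by
  have : Fact (Nat.Prime 2) := ⟨Nat.prime_two⟩
  have h1 : (S : Subgroup G) ≤ centralizer ({z} : Set G) := by
    intro s hs
    rw [mem_centralizer_singleton_iff]
    exact mem_centralizer_iff.1 hz s hs
  intro h2
  exact S.not_dvd_index (h2.trans (index_dvd_of_le h1))

theorem twoCentral {K : Subgroup G} [K.Normal] {z : ↥K} (hz : (z : G) ∈ centralizer ((S : Subgroup G) : Set G))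
    (h2 : (z : G) ^ 2 = 1) (h1 : (z : G) ≠ 1) : TwoCentral z := by
  refine ⟨fun h => h1 (by rw [h]; rfl), Subtype.ext h2, fun h => ?_⟩
  exact odd_index hz (h.trans (index_cent_dvd z))

/-- `C_G(z)` has characteristic 2 for `z` central in `S`. -/
theorem chP_center (c : Cx S Q M) {z : G} (hz : z ∈ centralizer ((S : Subgroup G) : Set G)) (h1 : z ≠ 1) :
    ChP 2 (centralizer ({z} : Set G)) := by
  apply c.chP_of_S
  · intro s hs
    rw [mem_centralizer_singleton_iff]
    exact mem_centralizer_iff.1 hz s hs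
  · intro h
    have hzS : z ∈ (S : Subgroup G) := c.st.QS (c.center_mem_S hz)
    have h2 : zpowers z ≤ pCoreOf 2 (centralizer ({z} : Set G)) := by
      apply le_pCoreOf
      · rw [zpowers_le, mem_centralizer_singleton_iff]
      · exact (centralizer_singleton_le_zpowers z).trans (centralizer_le_norm _)
      · exact isPGroup_mono (by rw [zpowers_le]; exact hzS) S.2
    rw [h, le_bot_iff, zpowers_eq_bot] at h2
    exact h1 h2

theorem chP_center_inf (c : Cx S Q M) {K : Subgroup G} [hK : K.Normal] {z : G}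
    (hz : z ∈ centralizer ((S : Subgroup G) : Set G)) (h1 : z ≠ 1) :
    ChP 2 (centralizer ({z} : Set G) ⊓ K) := by
  refine (c.chP_center hz h1).normal inf_le_left fun g hg => norm_inf_le _ _ ⟨le_normalizer hg, ?_⟩
  rw [Subgroup.normalizer_eq_top_iff.2 hK]; exact mem_top g

theorem chP_conj_inf (c : Cx S Q M) {K : Subgroup G} [hK : K.Normal] {t g : G}
    (hg : g * t * g⁻¹ ∈ centralizer ((S : Subgroup G) : Set G)) (ht1 : t ≠ 1) :
    ChP 2 (centralizer ({t} : Set G) ⊓ K) := by
  have hz1 : g * t * g⁻¹ ≠ 1 := by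
    intro h
    apply ht1
    calc t = g⁻¹ * (g * t * g⁻¹) * g := by group
      _ = 1 := by rw [h]; group
  have h3 := c.chP_center_inf (K := K) hg hz1
  have h4 := h3.cj g⁻¹
  have h5 : H229.cj g⁻¹ (centralizer ({g * t * g⁻¹} : Set G) ⊓ K) = centralizer ({t} : Set G) ⊓ K := by
    ext x
    rw [mem_cj, inv_inv, mem_inf, mem_inf, mem_centralizer_singleton_iff, mem_centralizer_singleton_iff]
    refine and_congr ?_ ?_
    · constructor
      · intro h
        have : g⁻¹ * (g * x * g⁻¹ * (g * t * g⁻¹)) * g = g⁻¹ * (g * t * g⁻¹ * (g * x * g⁻¹)) * g := by rw [h]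
        simpa [mul_assoc] using this
      · intro h
        calc g * x * g⁻¹ * (g * t * g⁻¹) = g * (x * t) * g⁻¹ := by group
          _ = g * (t * x) * g⁻¹ := by rw [h]
          _ = g * t * g⁻¹ * (g * x * g⁻¹) := by group
    · constructor
      · intro h
        have := hK.conj_mem _ h g⁻¹
        simpa [mul_assoc] using this
      · intro h
        exact hK.conj_mem _ h g
  rwa [h5] at h4

/-- an element with centralizer of odd index is conjugate into the centre of `S`. -/
theorem exists_conj_central (S : Sylow 2 G) {t : G} (h : ¬ 2 ∣ (centralizer ({t} : Set G)).index) :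
    ∃ g : G, g * t * g⁻¹ ∈ centralizer ((S : Subgroup G) : Set G) := by
  have : Fact (Nat.Prime 2) := ⟨Nat.prime_two⟩
  set C := centralizer ({t} : Set G) with hC
  obtain ⟨P⟩ := (Sylow.nonempty : Nonempty (Sylow 2 ↥C))
  have h1 : IsPGroup 2 ↥((P : Subgroup ↥C).map C.subtype) := P.2.map _
  have h2 : ¬ 2 ∣ ((P : Subgroup ↥C).map C.subtype).index := by
    rw [← relIndex_mul_index (Subgroup.map_subtype_le (P : Subgroup ↥C)), Nat.Prime.dvd_mul Nat.prime_two]
    rintro (h3 | h3)
    · rw [Subgroup.relIndex, Subgroup.subgroupOf, Subgroup.comap_map_eq_self_of_injective C.subtype_injective] at h3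
      exact P.not_dvd_index h3
    · exact h h3
  obtain ⟨g, hg⟩ := MulAction.exists_smul_eq G (h1.toSylow h2) S
  refine ⟨g, ?_⟩
  rw [mem_centralizer_iff]
  intro s hs
  rw [← hg] at hs
  obtain ⟨q, hq, rfl⟩ := hs
  obtain ⟨q', -, rfl⟩ := (hq : q ∈ (P : Subgroup ↥C).map C.subtype)
  have h3 : (q' : G) * t = t * q' := mem_centralizer_singleton_iff.1 q'.2
  show g * q' * g⁻¹ * (g * t * g⁻¹) = g * t * g⁻¹ * (g * q' * g⁻¹)
  calc g * q' * g⁻¹ * (g * t * g⁻¹) = g * (q' * t) * g⁻¹ := by group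
    _ = g * (t * q') * g⁻¹ := by rw [h3]
    _ = g * t * g⁻¹ * (g * q' * g⁻¹) := by group

end Cx

/-- **Criterion I.** -/
theorem dead_of_KI : DeadL.{u} fun K _ => KI K := by
  intro G _ _ S Q M c K hK hs hna _ hI
  obtain ⟨z, hzK, hz, h2, h1⟩ := Cx.exists_central S K (Cx.two_dvd_of_simple hna)
  obtain ⟨E, hEK, -, hEe, hzE, hYE, hEn, hEz, e, he, he1, hez⟩ := c.exists_four hzK hz h2 h1
  have h3 := hI ⟨z, hzK⟩ (Cx.twoCentral (S := S) hz h2 h1) ((chP_cent _).2 (c.chP_center_inf hz h1)) (E.subgroupOf K)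
    (by
      rw [centralizer_singleton_subtype]
      exact fun x hx => ⟨hEz hx, x.2⟩)
    (by
      rw [centralizer_singleton_subtype]
      exact le_norm_subgroupOf (inf_le_left.trans hEn))
    (ea_of_comm (fun a ha b hb => Subtype.ext (ea_comm hEe ha hb)) fun a ha => Subtype.ext (hEe.2 _ ha))
    hzE ⟨e, hEK (hYE he)⟩ (hYE he)
  rcases h3 with h3 | h3
  · exact he1 (congrArg Subtype.val h3)
  · exact hez (congrArg Subtype.val h3)

/-- **Criterion P.** -/
theorem dead_of_KP : DeadL.{u} fun K _ => KP K := by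
  intro G _ _ S Q M c K hK hs hna _ ⟨t, ⟨ht1, ht2, hodd⟩, hinv, hn⟩
  have : Fact (Nat.Prime 2) := ⟨Nat.prime_two⟩
  -- `|G : C_G(t)|` is odd
  have hG : ∀ g : G, ∃ k ∈ K, k * t * k⁻¹ = g * t * g⁻¹ := by
    intro g
    obtain ⟨k, hk⟩ := isConj_iff.1 (hinv (MulAut.conjNormal g)).symm
    exact ⟨k, k.2, by simpa using congrArg Subtype.val hk⟩
  have htop : centralizer ({(t : G)} : Set G) ⊔ K = ⊤ := by
    rw [eq_top_iff]
    intro g _
    obtain ⟨k, hk, hkt⟩ := hG g
    have h3 : k⁻¹ * g ∈ centralizer ({(t : G)} : Set G) := by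
      rw [mem_centralizer_singleton_iff]
      have : k⁻¹ * (g * t * g⁻¹) * k = t := by rw [← hkt]; group
      calc k⁻¹ * g * t = (k⁻¹ * (g * t * g⁻¹) * k) * (k⁻¹ * g) := by group
        _ = t * (k⁻¹ * g) := by rw [this]
    have h4 : g = k * (k⁻¹ * g) := by group
    rw [h4]
    exact mul_mem (mem_sup_right hk) (mem_sup_left h3)
  have hidx : ¬ 2 ∣ (centralizer ({(t : G)} : Set G)).index := by
    have h3 : (centralizer ({(t : G)} : Set G)).index = (centralizer ({t} : Set ↥K)).index := by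
      rw [centralizer_singleton_subtype]
      show _ = (centralizer ({(t : G)} : Set G) ⊓ K).relIndex K
      rw [inf_relIndex_right, ← relIndex_top_right, ← htop]
      have e1 : (centralizer ({(t : G)} : Set G) ⊓ K).relIndex K * K.relIndex (centralizer ({(t : G)} : Set G) ⊔ K) =
          (centralizer ({(t : G)} : Set G) ⊓ K).relIndex (centralizer ({(t : G)} : Set G) ⊔ K) :=
        relIndex_mul_relIndex _ _ _ inf_le_right le_sup_right
      have e2 : (centralizer ({(t : G)} : Set G) ⊓ K).relIndex (centralizer ({(t : G)} : Set G)) *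
          (centralizer ({(t : G)} : Set G)).relIndex (centralizer ({(t : G)} : Set G) ⊔ K) =
          (centralizer ({(t : G)} : Set G) ⊓ K).relIndex (centralizer ({(t : G)} : Set G) ⊔ K) :=
        relIndex_mul_relIndex _ _ _ inf_le_left le_sup_left
      rw [inf_relIndex_right, relIndex_sup_right] at e1
      rw [inf_relIndex_left, ← e1, mul_comm] at e2
      have e3 : 0 < K.relIndex (centralizer ({(t : G)} : Set G)) := Nat.pos_of_ne_zero (by
        unfold relIndex
        exact index_ne_zero_of_finite)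
      exact Nat.eq_of_mul_eq_mul_right e3 e2
    rw [h3]; exact hodd
  -- a Sylow 2-subgroup of `G` centralizes `t`
  obtain ⟨g, hg⟩ := Cx.exists_conj_central S hidx
  apply hn
  rw [chP_cent]
  exact c.chP_conj_inf hg fun h => ht1 (Subtype.ext h)

end Cfsg.Agent.H252.LT
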